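import Cfsg.Agent.H319.One.Weights
import Cfsg.Agent.H319.One.Base
import Cfsg.Agent.H593.RobinsonRank
import Mathlib.FieldTheory.IsAlgClosed.AlgebraicClosure
import Mathlib.GroupTheory.PGroup

/-!
# The line lemma (helper319, S4880)

* `fx A` : the dimension of the space of vectors fixed by the matrix `A`; `fx_conj`, `fx_map`, `fx_inv_transpose`;
* `line` : `P` elementary abelian of order `p ^ (a + 2)`, all `x ≠ 1` with `fx (ρ x) = f`: with `c` the dimension of the
  space of vectors fixed by `P`: `dim = c + t (1 + p + ... + p ^ (a + 1))`, `f = c + t (1 + ... + p ^ a)`, the order of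
  `|F|` modulo `p` divides `t`, and `t > 0` if `ρ` is injective;
* `classical_false` : the form used for the classical groups.
-/

set_option autoImplicit false
set_option linter.unusedSectionVars false

namespace Cfsg.Agent.H319.One

open Module Finset Weights

section Fx

variable {F F' : Type*} [Field F] [Field F'] {ι : Type*} [Fintype ι] [DecidableEq ι]

/-- The dimension of the space of fixed vectors. -/
noncomputable def fx (A : Matrix ι ι F) : ℕ := finrank F ↥(LinearMap.ker (Matrix.toLin' (A - 1)))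

theorem fx_add_rank (A : Matrix ι ι F) : fx A + (A - 1).rank = Fintype.card ι := by
  have h1 := LinearMap.finrank_range_add_finrank_ker (Matrix.toLin' (A - 1))
  rw [Module.finrank_fintype_fun_eq_card] at h1
  rw [add_comm]
  exact h1

theorem fx_of_rank {A : Matrix ι ι F} {B : Matrix ι ι F'} (h : (A - 1).rank = (B - 1).rank) : fx A = fx B := by
  have h1 := fx_add_rank A
  have h2 := fx_add_rank B
  omega

theorem rank_mul_unit (A : Matrix ι ι F) (g : GL ι F) : (A * (g : Matrix ι ι F)).rank = A.rank := by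
  apply Matrix.rank_mul_eq_left_of_isUnit_det
  exact (Matrix.isUnit_iff_isUnit_det _).1 g.isUnit

theorem rank_unit_mul (A : Matrix ι ι F) (g : GL ι F) : ((g : Matrix ι ι F) * A).rank = A.rank := by
  apply Matrix.rank_mul_eq_right_of_isUnit_det
  exact (Matrix.isUnit_iff_isUnit_det _).1 g.isUnit

theorem fx_conj (g : GL ι F) (A : Matrix ι ι F) : fx ((g : Matrix ι ι F) * A * ((g⁻¹ : GL ι F) : Matrix ι ι F)) = fx A := by
  apply fx_of_rank
  have h1 : (g : Matrix ι ι F) * A * ((g⁻¹ : GL ι F) : Matrix ι ι F) - 1 =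
      (g : Matrix ι ι F) * (A - 1) * ((g⁻¹ : GL ι F) : Matrix ι ι F) := by
    rw [mul_sub, sub_mul, mul_one, Units.mul_inv]
  rw [h1, rank_mul_unit, rank_unit_mul]

theorem fx_map (σ : F →+* F') (A : Matrix ι ι F) : fx (A.map σ) = fx A := by
  apply fx_of_rank
  have h1 : A.map σ - 1 = (A - 1).map σ := by
    ext i j
    by_cases hij : i = j
    · subst hij
      simp
    · simp [Matrix.one_apply_ne hij]
  rw [h1]
  exact Cfsg.Agent.H593.RobinsonRank.rank_map σ _

theorem fx_inv_transpose (g : GL ι F) : fx (((g⁻¹ : GL ι F) : Matrix ι ι F).transpose) = fx (g : Matrix ι ι F) := by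
  apply fx_of_rank
  have h1 : (((g⁻¹ : GL ι F) : Matrix ι ι F).transpose) - 1 =
      (-(((g : Matrix ι ι F) - 1) * ((g⁻¹ : GL ι F) : Matrix ι ι F))).transpose := by
    rw [sub_mul, Units.mul_inv, one_mul, neg_sub, Matrix.transpose_sub, Matrix.transpose_one]
  rw [h1, Matrix.rank_transpose]
  have h2 : (-(((g : Matrix ι ι F) - 1) * ((g⁻¹ : GL ι F) : Matrix ι ι F))) =
      ((g : Matrix ι ι F) - 1) * ((-(g⁻¹) : GL ι F) : Matrix ι ι F) := by
    rw [Units.val_neg, mul_neg]
  rw [h2, rank_mul_unit]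

theorem fx_inv (g : GL ι F) : fx ((g⁻¹ : GL ι F) : Matrix ι ι F) = fx (g : Matrix ι ι F) := by
  apply fx_of_rank
  have h1 : ((g⁻¹ : GL ι F) : Matrix ι ι F) - 1 = ((g : Matrix ι ι F) - 1) * ((-(g⁻¹) : GL ι F) : Matrix ι ι F) := by
    rw [Units.val_neg, mul_neg, sub_mul, Units.mul_inv, one_mul, neg_sub]
  rw [h1, rank_mul_unit]

theorem fx_le (A : Matrix ι ι F) : fx A ≤ Fintype.card ι := by
  have := fx_add_rank A
  omega

theorem eq_one_of_fx {A : Matrix ι ι F} (h : fx A = Fintype.card ι) : A = 1 := by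
  have h1 := fx_add_rank A
  have h2 : (A - 1).rank = 0 := by omega
  rw [Matrix.rank, finrank_eq_zero_iff_of_free (R := F)] at h2
  have h3 : LinearMap.range (A - 1).mulVecLin = ⊥ := Submodule.eq_bot_of_subsingleton
  have h4 : (A - 1).mulVecLin = 0 := LinearMap.range_eq_bot.1 h3
  have h5 : A - 1 = 0 := by
    apply Matrix.toLin'.injective
    rw [map_zero]
    exact h4
  exact sub_eq_zero.1 h5

end Fx

section Avg

variable {P : Type*} [CommGroup P] [Fintype P] {L : Type*} [Field L] {ι : Type*} [Fintype ι] [DecidableEq ι]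

/-- the associated representation -/
noncomputable def rp (ρ : P →* Matrix ι ι L) : P →* Module.End L (ι → L) :=
  (Matrix.toLinAlgEquiv' : Matrix ι ι L ≃ₐ[L] ((ι → L) →ₗ[L] (ι → L))).toRingEquiv.toMonoidHom.comp ρ

theorem rp_apply (ρ : P →* Matrix ι ι L) (x : P) (v : ι → L) : rp ρ x v = (ρ x).mulVec v := by
  show Matrix.toLinAlgEquiv' (ρ x) v = _
  rw [Matrix.toLinAlgEquiv'_apply]

/-- the average over a subgroup -/
noncomputable def avg (ρ : P →* Matrix ι ι L) (Q : Finset P) : Matrix ι ι L := (Q.card : L)⁻¹ • ∑ x ∈ Q, ρ x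

theorem fixS_eq (ρ : P →* Matrix ι ι L) (Q : Subgroup P) (Q' : Finset P) (hQ' : ∀ x, x ∈ Q' ↔ x ∈ Q)
    (hQ : (Q'.card : L) ≠ 0) : fixS (rp ρ) Q = LinearMap.ker (Matrix.toLin' (avg ρ Q' - 1)) := by
  ext v
  have h0 : (avg ρ Q').mulVec v = (Q'.card : L)⁻¹ • ∑ x ∈ Q', (ρ x).mulVec v := by
    rw [avg, Matrix.smul_mulVec, Matrix.sum_mulVec]
  rw [LinearMap.mem_ker, Matrix.toLin'_apply, Matrix.sub_mulVec, Matrix.one_mulVec, sub_eq_zero, h0]
  constructor
  · intro h
    have h1 : ∑ x ∈ Q', (ρ x).mulVec v = ∑ x ∈ Q', v := by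
      refine Finset.sum_congr rfl fun x hx => ?_
      rw [← rp_apply]
      exact h x ((hQ' x).1 hx)
    rw [h1, Finset.sum_const, ← Nat.cast_smul_eq_nsmul L, smul_smul, inv_mul_cancel₀ hQ, one_smul]
  · intro h y hy
    rw [← h, rp_apply, Matrix.mulVec_smul, Matrix.mulVec_sum]
    congr 1
    refine Finset.sum_bij (fun x _ => y * x) (fun x hx => ?_) (fun x _ z _ hxz => mul_left_cancel hxz)
      (fun z hz => ⟨y⁻¹ * z, ?_, mul_inv_cancel_left _ _⟩) (fun x hx => ?_)
    · rw [hQ'] at hx ⊢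
      exact Q.mul_mem hy hx
    · rw [hQ'] at hz ⊢
      exact Q.mul_mem (Q.inv_mem hy) hz
    · rw [Matrix.mulVec_mulVec, ← map_mul]

theorem finrank_fixS_eq (ρ : P →* Matrix ι ι L) (Q : Subgroup P) (Q' : Finset P) (hQ' : ∀ x, x ∈ Q' ↔ x ∈ Q)
    (hQ : (Q'.card : L) ≠ 0) : finrank L ↥(fixS (rp ρ) Q) = fx (avg ρ Q') := by
  rw [fixS_eq ρ Q Q' hQ' hQ, fx]

theorem finrank_fixS_zpowers (ρ : P →* Matrix ι ι L) (x : P) :
    finrank L ↥(fixS (rp ρ) (Subgroup.zpowers x)) = fx (ρ x) := by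
  have h1 : fixS (rp ρ) (Subgroup.zpowers x) = LinearMap.ker (Matrix.toLin' (ρ x - 1)) := by
    ext v
    rw [LinearMap.mem_ker, Matrix.toLin'_apply, Matrix.sub_mulVec, Matrix.one_mulVec, sub_eq_zero, ← rp_apply]
    constructor
    · intro h
      exact h x (Subgroup.mem_zpowers x)
    · intro h y hy
      have h2 : Subgroup.zpowers x ≤ (MulAction.stabilizer (Module.End L (ι → L))ˣ v).comap (MonoidHom.toHomUnits (rp ρ)) := by
        rw [Subgroup.zpowers_le]
        exact h
      exact h2 hy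
  rw [h1, fx]

/-- the dimensions of the fixed spaces do not change under a field extension -/
theorem finrank_fixS_map {L' : Type*} [Field L'] (i : L →+* L') (ρ : P →* Matrix ι ι L) (Q : Subgroup P)
    (hP : (Fintype.card P : L) ≠ 0) :
    finrank L' ↥(fixS (rp ((RingHom.mapMatrix i).toMonoidHom.comp ρ)) Q) = finrank L ↥(fixS (rp ρ) Q) := by
  classical
  let Q' : Finset P := Finset.univ.filter (· ∈ Q)
  have hQ' : ∀ x, x ∈ Q' ↔ x ∈ Q := fun x => by simp [Q']
  have hc : Q'.card = Nat.card Q := by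
    rw [Nat.card_eq_fintype_card, Fintype.card_subtype]
  have hd : (Q'.card : L) ≠ 0 := by
    intro h
    apply hP
    obtain ⟨k, hk⟩ := Q.card_subgroup_dvd_card
    rw [← Nat.card_eq_fintype_card, hk, Nat.cast_mul, ← hc, h, zero_mul]
  have hd' : (Q'.card : L') ≠ 0 := by
    intro h
    apply hd
    apply i.injective
    rw [map_natCast, h, map_zero]
  rw [finrank_fixS_eq ρ Q Q' hQ' hd, finrank_fixS_eq _ Q Q' hQ' hd', ← fx_map i]
  congr 1
  rw [avg, avg]
  ext a b
  rw [Matrix.map_apply, Matrix.smul_apply, Matrix.smul_apply, Matrix.sum_apply, Matrix.sum_apply, smul_eq_mul,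
    smul_eq_mul, map_mul, map_inv₀, map_natCast, map_sum]
  rfl

/-- The key formula over any field. -/
theorem key_any (ρ : P →* Matrix ι ι L) {p b f : ℕ} (hp : p.Prime) (hP : (Fintype.card P : L) ≠ 0)
    (hexp : ∀ x : P, x ^ p = 1) (hf : ∀ x : P, x ≠ 1 → fx (ρ x) = f) (Q : Subgroup P)
    (hQ : Nat.card Q = p ^ (b + 1)) :
    Fintype.card ι + (p ^ (b + 1) - 1) * f =
      p ^ b * Fintype.card ι + (p ^ (b + 1) - p ^ b) * finrank L ↥(fixS (rp ρ) Q) := by
  let i := algebraMap L (AlgebraicClosure L)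
  let ρ' := (RingHom.mapMatrix i).toMonoidHom.comp ρ
  have hP' : (Fintype.card P : AlgebraicClosure L) ≠ 0 := by
    intro h
    apply hP
    apply i.injective
    rw [map_natCast, h, map_zero]
  have h1 := key (rp ρ') hp hP' hexp (f := f) (fun x hx => by
    rw [finrank_fixS_zpowers]
    show fx ((ρ x).map i) = f
    rw [fx_map]
    exact hf x hx) Q hQ
  rw [Module.finrank_fintype_fun_eq_card, finrank_fixS_map i ρ Q hP] at h1
  exact h1

end Avg

/-- arithmetic -/
theorem arith {p a n f c A : ℕ} (hp : 2 ≤ p) (hcA : c ≤ A)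
    (h1 : n + (p ^ (a + 2) - 1) * f = p ^ (a + 1) * n + (p ^ (a + 2) - p ^ (a + 1)) * c)
    (h2 : n + (p ^ (a + 1) - 1) * f = p ^ a * n + (p ^ (a + 1) - p ^ a) * A) :
    n = c + (A - c) * ∑ i ∈ range (a + 2), p ^ i ∧ f = c + (A - c) * ∑ i ∈ range (a + 1), p ^ i := by
  obtain ⟨t, rfl⟩ := Nat.exists_eq_add_of_le hcA
  have hp1 : 1 ≤ p := by omega
  have e1 : ∀ k, 1 ≤ p ^ k := fun k => Nat.one_le_pow _ _ (by omega)
  have e2 : ∀ k, p ^ k ≤ p ^ (k + 1) := fun k => Nat.pow_le_pow_right hp1 (Nat.le_succ k)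
  have g : ∀ k, ((p : ℤ) - 1) * ∑ i ∈ range k, (p : ℤ) ^ i = (p : ℤ) ^ k - 1 := fun k => by
    rw [mul_comm]; exact geom_sum_mul (p : ℤ) k
  have h1' : (n : ℤ) + ((p : ℤ) ^ (a + 2) - 1) * f = (p : ℤ) ^ (a + 1) * n + ((p : ℤ) ^ (a + 2) - (p : ℤ) ^ (a + 1)) * c := by
    have := congrArg (Nat.cast (R := ℤ)) h1
    push_cast [e1, e2] at this
    exact this
  have h2' : (n : ℤ) + ((p : ℤ) ^ (a + 1) - 1) * f = (p : ℤ) ^ a * n + ((p : ℤ) ^ (a + 1) - (p : ℤ) ^ a) * (c + t) := by
    have := congrArg (Nat.cast (R := ℤ)) h2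
    push_cast [e1, e2] at this
    exact this
  set S : ℤ := ∑ i ∈ range (a + 2), (p : ℤ) ^ i with hS
  set S' : ℤ := ∑ i ∈ range (a + 1), (p : ℤ) ^ i with hS'
  have gS := g (a + 2)
  have gS' := g (a + 1)
  rw [← hS] at gS
  rw [← hS'] at gS'
  have hpa : (0 : ℤ) < (p : ℤ) ^ a := by positivity
  have hp1' : (0 : ℤ) < (p : ℤ) - 1 := by
    have : (2 : ℤ) ≤ p := by exact_mod_cast hp
    linarith
  set q : ℤ := (p : ℤ) with hq
  set u : ℤ := q ^ a with hu
  have p1 : q ^ (a + 1) = u * q := by rw [pow_succ]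
  have p2 : q ^ (a + 2) = u * q * q := by rw [pow_succ, pow_succ]
  rw [p1, p2] at h1'
  rw [p1] at h2' gS'
  rw [p2] at gS
  have k1 : ((n : ℤ) - c) = S * t := by
    have h3 : u * (q - 1) ^ 2 * (((n : ℤ) - c) - S * t) = 0 := by
      have h4 : (u * q * q - 1) * ((f : ℤ) - c) = (u * q - 1) * ((n : ℤ) - c) := by linarith
      have h5 : (u * q - 1) * ((f : ℤ) - c) = (u - 1) * ((n : ℤ) - c) + (u * q - u) * t := by linarith
      have h6 : (u * q - 1) * ((u * q * q - 1) * ((f : ℤ) - c)) = (u * q - 1) * ((u * q - 1) * ((n : ℤ) - c)) := by rw [h4]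
      have h7 : (u * q * q - 1) * ((u * q - 1) * ((f : ℤ) - c)) =
        (u * q * q - 1) * ((u - 1) * ((n : ℤ) - c) + (u * q - u) * t) := by rw [h5]
      have h8 : u * (q - 1) ^ 2 * ((n : ℤ) - c) = u * (q - 1) * (u * q * q - 1) * t := by linear_combination h7 - h6
      rw [mul_sub, h8, ← gS]
      ring
    rcases mul_eq_zero.1 h3 with h4 | h4
    · exfalso
      have : 0 < u * (q - 1) ^ 2 := by positivity
      linarith
    · linarith
  have k2 : ((f : ℤ) - c) = S' * t := by
    have h3 : (q - 1) * S * (((f : ℤ) - c) - S' * t) = 0 := by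
      have h4 : (u * q * q - 1) * ((f : ℤ) - c) = (u * q - 1) * ((n : ℤ) - c) := by linarith
      rw [k1] at h4
      rw [← gS, ← gS'] at h4
      linear_combination h4
    have hSpos : 0 < S := by
      have : 0 < (q - 1) * S := by
        rw [gS]
        have h5 : 1 ≤ u := hpa
        have h6 : 2 ≤ q := by linarith
        have h7 : 4 ≤ q * q := by nlinarith
        have h8 : 1 * 4 ≤ u * (q * q) := mul_le_mul h5 h7 (by norm_num) (by linarith)
        have h9 : u * q * q = u * (q * q) := mul_assoc _ _ _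
        linarith
      exact (mul_pos_iff_of_pos_left hp1').1 this
    rcases mul_eq_zero.1 h3 with h4 | h4
    · exfalso
      have : 0 < (q - 1) * S := mul_pos hp1' hSpos
      linarith
    · linarith
  constructor
  · zify
    rw [Nat.add_sub_cancel_left]
    linarith
  · zify
    rw [Nat.add_sub_cancel_left]
    linarith

section Main

variable {P : Type*} [CommGroup P] [Finite P] {F : Type*} [Field F] [Finite F] {ι : Type*} [Fintype ι] [DecidableEq ι]

/-- **The line lemma.** -/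
theorem line (ρ : P →* Matrix ι ι F) {p a f : ℕ} (hp : p.Prime) (hpF : ¬ p ∣ Nat.card F)
    (hcard : Nat.card P = p ^ (a + 2)) (hexp : ∀ x : P, x ^ p = 1) (hf : ∀ x : P, x ≠ 1 → fx (ρ x) = f) :
    ∃ c t, Fintype.card ι = c + t * ∑ i ∈ range (a + 2), p ^ i ∧ f = c + t * ∑ i ∈ range (a + 1), p ^ i ∧
      orderOf ((Nat.card F : ℕ) : ZMod p) ∣ t := by
  classical
  have : Fintype P := Fintype.ofFinite P
  have hfp : Fact p.Prime := ⟨hp⟩
  have hpF0 : (p : F) ≠ 0 := by
    intro h0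
    apply hpF
    have h1 : ringChar F ∣ p := (ringChar.spec F p).1 h0
    have : Fintype F := Fintype.ofFinite F
    obtain ⟨m, hr, hm⟩ := FiniteField.card F (ringChar F)
    have h2 : ringChar F = p := (Nat.prime_dvd_prime_iff_eq hr hp).1 h1
    rw [Nat.card_eq_fintype_card, hm, h2]
    exact dvd_pow_self p m.ne_zero
  have hP : (Fintype.card P : F) ≠ 0 := by
    rw [← Nat.card_eq_fintype_card, hcard, Nat.cast_pow]
    exact pow_ne_zero _ hpF0
  have hPG : IsPGroup p P := IsPGroup.of_card hcard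
  obtain ⟨Q, hQ⟩ := Sylow.exists_subgroup_card_pow_prime (G := P) p (n := a + 1) (by
    rw [hcard]; exact pow_dvd_pow p (by omega))
  have h1 := key_any ρ (b := a + 1) hp hP hexp hf (⊤ : Subgroup P) (by
    rw [Nat.card_congr (Subgroup.topEquiv (G := P)).toEquiv, hcard])
  have h2 := key_any ρ (b := a) hp hP hexp hf Q hQ
  set c := finrank F ↥(fixS (rp ρ) ⊤) with hc
  set A := finrank F ↥(fixS (rp ρ) Q) with hA
  have hle : fixS (rp ρ) ⊤ ≤ fixS (rp ρ) Q := fun v hv x _ => hv x (Subgroup.mem_top x)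
  have hcA : c ≤ A := Submodule.finrank_mono hle
  obtain ⟨e1, e2⟩ := arith hp.two_le hcA h1 h2
  refine ⟨c, A - c, e1, e2, ?_⟩
  -- the action on the fixed space of `Q`
  let act : MulAction P ↥(fixS (rp ρ) Q) :=
    { smul := fun x v => ⟨rp ρ x v, fixS_stable (rp ρ) Q x v v.2⟩
      one_smul := by
        intro v
        apply Subtype.ext
        show rp ρ 1 v = v
        rw [map_one]
        rfl
      mul_smul := by
        intro x y v
        apply Subtype.ext
        show rp ρ (x * y) v = rp ρ x (rp ρ y v)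
        rw [map_mul]
        rfl }
  have hfin : Finite (ι → F) := inferInstance
  have hfin2 : Finite ↥(fixS (rp ρ) Q) := Finite.of_injective _ Subtype.val_injective
  have h3 := hPG.card_modEq_card_fixedPoints (α := ↥(fixS (rp ρ) Q))
  have h4 : Nat.card (MulAction.fixedPoints P ↥(fixS (rp ρ) Q)) = Nat.card ↥(fixS (rp ρ) ⊤) := by
    refine Nat.card_congr ⟨fun v => ⟨v.1.1, fun x _ => congrArg Subtype.val (v.2 x)⟩,
      fun v => ⟨⟨v.1, hle v.2⟩, fun x => Subtype.ext (v.2 x (Subgroup.mem_top x))⟩, fun v => rfl, fun v => rfl⟩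
  rw [h4, Module.natCard_eq_pow_finrank (K := F) (V := ↥(fixS (rp ρ) Q)),
    Module.natCard_eq_pow_finrank (K := F) (V := ↥(fixS (rp ρ) ⊤)), ← hA, ← hc] at h3
  obtain ⟨t, ht⟩ := Nat.exists_eq_add_of_le hcA
  rw [ht, Nat.add_sub_cancel_left]
  rw [ht, pow_add] at h3
  have h5 : Nat.card F ^ t ≡ 1 [MOD p] := by
    have h6 : Nat.Coprime p (Nat.card F ^ c) := Nat.Coprime.pow_right _ ((Nat.Prime.coprime_iff_not_dvd hp).2 hpF)
    apply Nat.ModEq.cancel_left_of_coprime (c := Nat.card F ^ c) h6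
    rw [mul_one]
    exact h3
  apply orderOf_dvd_of_pow_eq_one
  have h6 := (ZMod.natCast_eq_natCast_iff _ _ p).2 h5
  push_cast at h6
  exact h6

/-- The dimension bound. -/
theorem line_le (ρ : P →* Matrix ι ι F) {p n f : ℕ} (hp : p.Prime) (hpF : ¬ p ∣ Nat.card F) (hn : 2 ≤ n)
    (hcard : Nat.card P = p ^ n) (hexp : ∀ x : P, x ^ p = 1) (hf : ∀ x : P, x ≠ 1 → fx (ρ x) = f)
    (hinj : Function.Injective ρ) :
    orderOf ((Nat.card F : ℕ) : ZMod p) * ∑ i ∈ range n, p ^ i ≤ Fintype.card ι := by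
  obtain ⟨a, rfl⟩ := Nat.exists_eq_add_of_le' hn
  obtain ⟨c, t, h1, h2, h3⟩ := line ρ hp hpF hcard hexp hf
  have ht : 0 < t := by
    rcases Nat.eq_zero_or_pos t with h0 | h0
    · exfalso
      rw [h0, zero_mul, add_zero] at h1 h2
      have : Nontrivial P := by
        rw [← Finite.one_lt_card_iff_nontrivial, hcard]
        exact Nat.one_lt_pow (by omega) hp.one_lt
      obtain ⟨x, hx⟩ := exists_ne (1 : P)
      apply hx
      apply hinj
      rw [map_one]
      apply eq_one_of_fx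
      rw [hf x hx, h2, h1]
    · exact h0
  rw [h1]
  calc _ ≤ t * ∑ i ∈ range (a + 2), p ^ i := Nat.mul_le_mul_right _ (Nat.le_of_dvd ht h3)
    _ ≤ _ := Nat.le_add_left _ _

end Main

/-- **The form for the classical groups.** -/
theorem classical_false {p n : ℕ} [Fact p.Prime] {S : Type*} [Group S] [Finite S] (h : Hyp p n S) {F : Type*} [Field F]
    [Fintype F] {ι : Type*} [Fintype ι] [DecidableEq ι] {X : Type*} [Group X] [Finite X]
    (ρ : X →* Matrix.GeneralLinearGroup ι F) (hρ : Function.Injective ρ) (π : X →* S) (hπ : Function.Surjective π)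
    (hk : ¬ p ∣ Nat.card π.ker) (hpF : ¬ p ∣ Fintype.card F)
    (hinv : ∀ (φ : MulAut S) (x y : X), orderOf x = p → orderOf y = p → φ (π x) = π y →
      fx ((ρ x : Matrix.GeneralLinearGroup ι F) : Matrix ι ι F) = fx ((ρ y : Matrix.GeneralLinearGroup ι F) : Matrix ι ι F))
    (hN : Fintype.card ι < orderOf ((Fintype.card F : ℕ) : ZMod p) * ∑ i ∈ range n, p ^ i) : False := by
  classical
  have hp : p.Prime := Fact.out
  obtain ⟨Q⟩ : Nonempty (Sylow p X) := inferInstance
  have hkerQ : ∀ x ∈ (Q : Subgroup X), π x = 1 → x = 1 := by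
    intro x hx hx1
    obtain ⟨k, hk1⟩ := Q.2 ⟨x, hx⟩
    have hk2 : x ^ p ^ k = 1 := congrArg Subtype.val hk1
    have h1 : orderOf x ∣ p ^ k := orderOf_dvd_of_pow_eq_one hk2
    have h2 : orderOf x ∣ Nat.card π.ker := by
      have h3 : orderOf (⟨x, hx1⟩ : π.ker) = orderOf x := Subgroup.orderOf_mk _ _
      rw [← h3]
      exact orderOf_dvd_natCard _
    have h3 : Nat.Coprime (p ^ k) (Nat.card π.ker) := Nat.Coprime.pow_left _ ((Nat.Prime.coprime_iff_not_dvd hp).2 hk)
    exact orderOf_eq_one_iff.1 (Nat.eq_one_of_dvd_coprimes h3 h1 h2)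
  have hinjQ : Function.Injective (π.comp (Q : Subgroup X).subtype) := by
    rw [injective_iff_map_eq_one]
    intro x hx
    exact Subtype.ext (hkerQ x x.2 hx)
  let Q' : Subgroup S := (Q : Subgroup X).map π
  have hQ'p : IsPGroup p Q' := Q.2.map π
  have hcard : Nat.card (Q : Subgroup X) = p ^ n := by
    have h1 : Nat.card X = Nat.card π.ker * Nat.card S := by
      rw [← Nat.card_congr (QuotientGroup.quotientKerEquivOfSurjective π hπ).toEquiv, mul_comm]
      exact Subgroup.card_eq_card_quotient_mul_card_subgroup π.ker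
    obtain ⟨P0⟩ : Nonempty (Sylow p S) := inferInstance
    rw [Sylow.card_eq_multiplicity, ← h.card P0, Sylow.card_eq_multiplicity, h1,
      Nat.factorization_mul Nat.card_pos.ne' Nat.card_pos.ne', Finsupp.add_apply, Nat.factorization_eq_zero_of_not_dvd hk,
      zero_add]
  have hcomm : ∀ a b : (Q : Subgroup X), a * b = b * a := by
    intro a b
    apply hinjQ
    rw [map_mul, map_mul]
    exact h.comm Q' hQ'p _ ⟨a, a.2, rfl⟩ _ ⟨b, b.2, rfl⟩
  have hexp : ∀ x : (Q : Subgroup X), x ^ p = 1 := by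
    intro x
    apply hinjQ
    rw [map_pow, map_one]
    obtain ⟨k, hk1⟩ := Q.2 x
    exact h.exp _ k (by rw [← map_pow, hk1, map_one])
  let _ : CommGroup (Q : Subgroup X) := { (inferInstance : Group (Q : Subgroup X)) with mul_comm := hcomm }
  have hord : ∀ x : (Q : Subgroup X), x ≠ 1 → orderOf (x : X) = p := by
    intro x hx
    rw [Subgroup.orderOf_coe]
    exact orderOf_eq_prime (hexp x) hx
  have hn1 : Nontrivial (Q : Subgroup X) := by
    rw [← Finite.one_lt_card_iff_nontrivial, hcard]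
    exact Nat.one_lt_pow (by have := h.two; omega) hp.one_lt
  obtain ⟨x0, hx0⟩ := exists_ne (1 : (Q : Subgroup X))
  let ρ' : (Q : Subgroup X) →* Matrix ι ι F := (Units.coeHom _).comp (ρ.comp (Q : Subgroup X).subtype)
  have hρ' : Function.Injective ρ' := fun a b hab => Subtype.ext (hρ (Units.ext hab))
  have h1 := line_le ρ' (p := p) (n := n) (f := fx (ρ' x0)) hp (by rwa [Nat.card_eq_fintype_card]) h.two hcard hexp
    (fun x hx => by
      obtain ⟨φ, hφ⟩ := h.one (π x0) (π x) (h.order_of_mem hQ'p ⟨x0, x0.2, rfl⟩ fun h2 => hx0 (Subtype.ext (hkerQ x0 x0.2 h2)))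
        (h.order_of_mem hQ'p ⟨x, x.2, rfl⟩ fun h2 => hx (Subtype.ext (hkerQ x x.2 h2)))
      exact (hinv φ x0 x (hord x0 hx0) (hord x hx) hφ).symm) hρ'
  rw [Nat.card_eq_fintype_card] at h1
  omega

end Cfsg.Agent.H319.One
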