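import Cfsg.Agent.H319.One.RootD

/-!
# The numerical lists for 12, 24, 48, 72, 126, 240 roots (helper319, S4880)
-/

set_option autoImplicit false

namespace Cfsg.Agent.H319.One.Num

theorem c12 : chk 12 (fun _ _ _ => false) = true := by decide +kernel

theorem c24 : chk 24 (fun p d n => (d == 1 || d == 2) && p == 11 && n == 2) = true := by decide +kernel

theorem c48 : chk 48 (fun p d n => ((d == 1 || d == 2) && (n < 4 : Bool)) ||
    (p == 7 && (d == 3 || d == 6) && n == 2)) = true := by decide +kernel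

theorem c72 : chk 72 (fun p d n => ((d == 1 || d == 2) && (n < 4 : Bool)) || (p == 17 && d == 4 && n == 2)) = true := by
  decide +kernel

theorem c126 : chk 126 (fun p d n => ((d == 1 || d == 2) && (n < 4 : Bool)) || ((d == 3 || d == 6) && n == 2) ||
    (p == 13 && d == 4 && n == 2)) = true := by decide +kernel

theorem c240 : chk 240 (fun p d n => ((d == 1 || d == 2) && (n < 4 : Bool)) || ((d == 3 || d == 6 || d == 4) && n == 2) ||
    p == 5 || (p == 11 && (d == 5 || d == 10) && n == 2)) = true := by decide +kernel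

end Cfsg.Agent.H319.One.Num

namespace Cfsg.Agent.H319.One.RootC

open CoxeterSystem Cfsg.Agent.ChevalleyStructure.CoxeterGeom Cfsg.Agent.Tits.Roots Cfsg.Agent.Tits.Core
  Cfsg.Agent.Nodes.Coroot Cfsg.Agent.H795.RootConn Cfsg.Agent.Nodes.PosPair

variable {I W : Type*} [Fintype I] [DecidableEq I] [Group W] {M : CoxeterMatrix I}
  {cs : CoxeterSystem M W} {A : I → I → ℤ} {h : IsCartan M A}
  {E K : Type*} [CommGroup E] [Field K] {p q n Z : ℕ} {X : (I → ℤ) → (E →* Kˣ)} {θ : (I → ℤ) ≃+ (I → ℤ)}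
  [hp : Fact p.Prime]

/-- **The list of the numerical possibilities.** -/
theorem FD.list [Finite W] (D : FD cs h p q n Z X θ) (h5 : 5 ≤ p) (hn : 2 ≤ n) (hn5 : p = 5 → 3 ≤ n)
    (hq : (q : ZMod p) ≠ 0) (hirr : IrrC cs h) {N : ℕ} (hN : {a | IsRoot cs h a}.ncard = N) (hN240 : N ≤ 240)
    {P : ℕ → ℕ → ℕ → Bool} (hP : Num.chk N P = true) : P p (orderOf (q : ZMod p)) n = true := by
  refine Num.num hN240 hp.out h5 hn hn5 (ZMod.orderOf_dvd_card_sub_one hq) rfl ?_ hP
  rcases D.cases (by omega) hn hq hirr hN rfl with ⟨h1, -⟩ | ⟨m, h1, -, h2, -⟩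
  · exact Or.inl h1
  · right
    have h3 : 2 * Nat.lcm 2 (orderOf (q : ZMod p)) * ∑ i ∈ Finset.range n, p ^ i ≤ m * ∑ i ∈ Finset.range n, p ^ i :=
      Nat.mul_le_mul_right _ h1
    omega

end Cfsg.Agent.H319.One.RootC
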