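import Cfsg.Agent.ClassicalGeometry.PSL2Basic
import Cfsg.Agent.S2299
import Cfsg.Agent.H525.PslK
import Cfsg.Agent.H142.GmnBlock
import Cfsg.Agent.H692.RealOver
import Cfsg.Prelude.Def_Blocks

/-!
# S4880: the principal block of `PSL₂(q)` in its own characteristic (helper319)
-/

set_option autoImplicit false
set_option linter.unusedSectionVars false

namespace Cfsg.Agent.H319.One.PslA

open Cfsg Cfsg.Agent.ClassicalGeometry.PSL2Basic Matrix

universe u

section

variable {F : Type*} [Field F]

/-- the upper unitriangular matrices -/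
def uu (b : F) : SpecialLinearGroup (Fin 2) F := ⟨!![1, b; 0, 1], by simp [Matrix.det_fin_two]⟩

theorem uu_coe (b : F) : (uu b : Matrix (Fin 2) (Fin 2) F) = !![1, b; 0, 1] := rfl

theorem uu_mul (a b : F) : uu a * uu b = uu (a + b) := by
  apply Subtype.ext
  show !![1, a; 0, 1] * !![1, b; 0, 1] = !![1, a + b; 0, 1]
  rw [Matrix.mul_fin_two]
  ext i j
  fin_cases i <;> fin_cases j <;> simp [add_comm]

theorem uu_zero : uu (0 : F) = 1 := by
  apply Subtype.ext
  show !![1, (0 : F); 0, 1] = 1
  rw [Matrix.one_fin_two]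

theorem uu_pow (b : F) (m : ℕ) : uu b ^ m = uu (m * b) := by
  induction m with
  | zero => rw [pow_zero, Nat.cast_zero, zero_mul, uu_zero]
  | succ m ih => rw [pow_succ, ih, uu_mul]; congr 1; push_cast; ring

/-- the hom from the additive group -/
def uh (F : Type*) [Field F] : Multiplicative F →* SpecialLinearGroup (Fin 2) F where
  toFun b := uu b.toAdd
  map_one' := uu_zero
  map_mul' _ _ := (uu_mul _ _).symm

theorem uu_center {b : F} (h : uu b ∈ Subgroup.center (SpecialLinearGroup (Fin 2) F)) : b = 0 := by
  rcases mem_center_SL2_iff.1 h with h | h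
  · have h1 := congrFun (congrFun (congrArg (fun g : SpecialLinearGroup (Fin 2) F => (g : Matrix (Fin 2) (Fin 2) F)) h) 0) 1
    simpa [uu] using h1
  · have h1 := congrFun (congrFun (congrArg (fun g : SpecialLinearGroup (Fin 2) F => (g : Matrix (Fin 2) (Fin 2) F)) h) 0) 1
    simpa [uu] using h1

/-- Elements commuting with `uu 1` up to the centre. -/
theorem comm_uu (h2 : (2 : F) ≠ 0) {g : SpecialLinearGroup (Fin 2) F}
    (h : g * uu 1 * g⁻¹ * (uu 1)⁻¹ ∈ Subgroup.center (SpecialLinearGroup (Fin 2) F)) :
    ∃ b : F, g = uu b ∨ g = -uu b := by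
  have key : g * uu 1 = uu 1 * g ∨ g * uu 1 = -(uu 1 * g) := by
    rcases mem_center_SL2_iff.1 h with h | h
    · left
      have := congrArg (fun z => z * uu 1 * g) h
      simpa [mul_assoc] using this
    · right
      have := congrArg (fun z => z * uu 1 * g) h
      simpa [mul_assoc] using this
  have hent : ∀ (i j : Fin 2) {A B : SpecialLinearGroup (Fin 2) F}, A = B →
      (A : Matrix (Fin 2) (Fin 2) F) i j = (B : Matrix (Fin 2) (Fin 2) F) i j := by
    intro i j A B h; rw [h]
  have hdet : g 0 0 * g 1 1 - g 0 1 * g 1 0 = 1 := by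
    have := g.det_coe
    rwa [Matrix.det_fin_two] at this
  rcases key with h | h
  · have h00 := hent 0 0 h
    have h01 := hent 0 1 h
    simp [SpecialLinearGroup.coe_mul, SpecialLinearGroup.coe_neg, uu_coe, Matrix.mul_apply, Fin.sum_univ_two] at h00 h01
    have hc : g 1 0 = 0 := by simpa using h00
    have had : g 0 0 = g 1 1 := by
      linear_combination h01
    rw [hc, had, mul_zero, sub_zero] at hdet
    have ha : g 1 1 = 1 ∨ g 1 1 = -1 := by
      have : (g 1 1 - 1) * (g 1 1 + 1) = 0 := by linear_combination hdet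
      rcases mul_eq_zero.1 this with h | h
      · left; linear_combination h
      · right; linear_combination h
    rcases ha with ha | ha
    · refine ⟨g 0 1, Or.inl ?_⟩
      apply Subtype.ext
      ext i j
      fin_cases i <;> fin_cases j <;> simp [SpecialLinearGroup.coe_neg, uu_coe, hc, had, ha]
    · refine ⟨-g 0 1, Or.inr ?_⟩
      apply Subtype.ext
      ext i j
      fin_cases i <;> fin_cases j <;> simp [SpecialLinearGroup.coe_neg, uu_coe, hc, had, ha]
  · exfalso
    have h00 := hent 0 0 h
    have h01 := hent 0 1 h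
    have h10 := hent 1 0 h
    have h11 := hent 1 1 h
    simp [SpecialLinearGroup.coe_mul, SpecialLinearGroup.coe_neg, uu_coe, Matrix.mul_apply, Matrix.vecMul, dotProduct, Fin.sum_univ_two] at h00 h01 h10 h11
    have hc : g 1 0 = 0 := by
      have : (2 : F) * g 1 0 = 0 := by linear_combination h10
      exact (mul_eq_zero.1 this).resolve_left h2
    rw [hc] at h00
    have ha : g 0 0 = 0 := by
      have : (2 : F) * g 0 0 = 0 := by linear_combination h00
      exact (mul_eq_zero.1 this).resolve_left h2
    rw [hc, ha] at hdet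
    simp at hdet

end

end Cfsg.Agent.H319.One.PslA
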